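import Mathlib
import Cfsg.Prelude.Def_Characters

set_option autoImplicit false

/-! Ladder FV (S4923): base definition. -/

namespace Cfsg.Agent.Lib.Helper19.FV

open Cfsg

/-- the field of values of the column of `g` -/
noncomputable abbrev KK {G : Type*} [Group G] (g : G) : IntermediateField ℚ ℂ :=
  IntermediateField.adjoin ℚ {z : ℂ | ∃ χ : Cfsg.IrrCharacter G, (χ : G → ℂ) g = z}

end Cfsg.Agent.Lib.Helper19.FV
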