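import Mathlib

set_option autoImplicit false

/-! Ladder FV (S4923), rung FUSE. -/

namespace Cfsg.Agent.Lib.Helper19.FV

open Subgroup
open scoped Pointwise

theorem fuse_mem_normalizer {G : Type*} [Group G] [Finite G] (a g : G)
    (h : g * a * g⁻¹ ∈ zpowers a) : g ∈ normalizer (zpowers a : Set G) := by
  have hle : (zpowers a).map (MulAut.conj g).toMonoidHom ≤ zpowers a := by
    rw [MonoidHom.map_zpowers, zpowers_le]
    simpa using h
  have heq : (zpowers a).map (MulAut.conj g).toMonoidHom = zpowers a :=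
    eq_of_le_of_card_ge hle (le_of_eq (card_map_of_injective (MulAut.conj g).injective).symm)
  rw [mem_normalizer_iff]
  intro x
  constructor
  · intro hx
    rw [← heq]
    exact ⟨x, hx, by simp⟩
  · intro hx
    rw [← heq] at hx
    obtain ⟨x', hx', hxx⟩ := hx
    have : x' = x := by
      have h2 : g * x' * g⁻¹ = g * x * g⁻¹ := by simpa using hxx
      simpa using h2
    exact this ▸ hx'

theorem fuse_conj_pow {G : Type*} [Group G] (a y : G) (j : ℕ) (h : y * a * y⁻¹ = a ^ j) (k : ℕ) :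
    y ^ k * a * (y ^ k)⁻¹ = a ^ (j ^ k) := by
  induction k with
  | zero => simp
  | succ k ih =>
    have : y ^ (k + 1) * a * (y ^ (k + 1))⁻¹ = y * (y ^ k * a * (y ^ k)⁻¹) * y⁻¹ := by
      rw [pow_succ']; group
    rw [this, ih, ← conj_pow, h, ← pow_mul, pow_succ']

theorem fuse_split {G : Type*} [Group G] [Finite G] (P : Subgroup G) (n : ℕ) (hn : 1 ≤ n)
    (hP : Nat.card P = 2 ^ n) (a b : G) (ha : a ∈ P) (hb : b ∈ P)
    (hao : orderOf a = 2 ^ (n - 1)) (hba : b ∉ zpowers a) (p : G) (hp : p ∈ P) :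
    p ∈ zpowers a ∨ ∃ c ∈ zpowers a, p = b * c := by
  have hle : zpowers a ≤ P := zpowers_le.2 ha
  have hidx : ((zpowers a).subgroupOf P).index = 2 := by
    have h1 := ((zpowers a).subgroupOf P).card_mul_index
    rw [hP, Nat.card_congr (subgroupOfEquivOfLe hle).toEquiv, Nat.card_zpowers, hao] at h1
    have h2 : (2 : ℕ) ^ n = 2 ^ (n - 1) * 2 := by
      rw [← pow_succ]; congr 1; omega
    rw [h2] at h1
    exact Nat.eq_of_mul_eq_mul_left (by positivity) h1
  by_cases hpa : p ∈ zpowers a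
  · exact Or.inl hpa
  · right
    refine ⟨b⁻¹ * p, ?_, by group⟩
    have := mul_mem_iff_of_index_two hidx (a := (⟨b⁻¹, P.inv_mem hb⟩ : P)) (b := ⟨p, hp⟩)
    simp only [mem_subgroupOf, Subgroup.coe_mul] at this
    rw [this]
    simp [hpa, hba]

theorem fuse {G : Type*} [Group G] [Finite G] (P : Sylow 2 G) (n : ℕ) (hn : 3 ≤ n)
    (hP : Nat.card P = 2 ^ n) (a b : G) (ha : a ∈ (P : Subgroup G)) (hb : b ∈ (P : Subgroup G))
    (hao : orderOf a = 2 ^ (n - 1)) (hba : b ∉ Subgroup.zpowers a) (ε : ℕ)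
    (hconj : b * a * b⁻¹ = a ^ ε) (j : ℕ) (h : IsConj a (a ^ j)) : a ^ j = a ∨ a ^ j = a ^ ε := by
  classical
  obtain ⟨y, hy⟩ := isConj_iff.1 h
  set N := normalizer (zpowers a : Set G) with hN
  -- the action of elements of `P`
  have hPact : ∀ p ∈ (P : Subgroup G), p * a * p⁻¹ = a ∨ p * a * p⁻¹ = a ^ ε := by
    intro p hp
    rcases fuse_split (P : Subgroup G) n (by omega) hP a b ha hb hao hba p hp with h1 | ⟨c, hc, rfl⟩
    · left
      obtain ⟨i, rfl⟩ := mem_zpowers_iff.1 h1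
      have : a ^ i * a = a * a ^ i := by
        rw [← zpow_add_one, ← zpow_one_add, add_comm]
      rw [this]; group
    · right
      obtain ⟨i, rfl⟩ := mem_zpowers_iff.1 hc
      have h2 : a ^ i * a = a * a ^ i := by
        rw [← zpow_add_one, ← zpow_one_add, add_comm]
      have : b * a ^ i * a * (b * a ^ i)⁻¹ = b * a * b⁻¹ := by
        rw [mul_assoc b, h2]; group
      rw [this, hconj]
  have hPN : (P : Subgroup G) ≤ N := by
    intro p hp
    apply fuse_mem_normalizer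
    rcases hPact p hp with h1 | h1 <;> rw [h1]
    · exact mem_zpowers a
    · exact Subgroup.pow_mem _ (mem_zpowers a) _
  -- arithmetic
  have hjc : Nat.Coprime j (2 ^ (n - 1)) := by
    have h1 : orderOf (a ^ j) = orderOf a := by
      rw [← hy]
      exact (MulAut.conj y).orderOf_eq a
    have h0 : 0 < orderOf a := by rw [hao]; positivity
    rw [orderOf_pow' _ (by
      rintro rfl
      rw [pow_zero, orderOf_one, hao] at h1
      have : 2 ^ 1 ≤ 2 ^ (n - 1) := Nat.pow_le_pow_right (by norm_num) (by omega)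
      omega)] at h1
    have h2 : Nat.gcd (orderOf a) j = 1 := by
      have h3 := Nat.div_mul_cancel (Nat.gcd_dvd_left (orderOf a) j)
      rw [h1] at h3
      have : orderOf a * (orderOf a).gcd j = orderOf a * 1 := by rw [h3, mul_one]
      exact Nat.eq_of_mul_eq_mul_left h0 this
    rw [hao] at h2
    exact (Nat.coprime_comm).1 h2
  have hjt : j ^ 2 ^ (n - 2) ≡ 1 [MOD 2 ^ (n - 1)] := by
    have h1 := Nat.ModEq.pow_totient hjc
    rw [Nat.totient_prime_pow Nat.prime_two (by omega)] at h1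
    have : n - 1 - 1 = n - 2 := by omega
    simpa [this] using h1
  obtain ⟨s, m, hm, hsm⟩ := Nat.exists_eq_two_pow_mul_odd (orderOf_pos y).ne'
  have hcop : Nat.Coprime m (2 ^ (s + n)) :=
    Nat.Coprime.pow_right _ (Nat.coprime_two_right.2 hm)
  obtain ⟨u, hu⟩ : ∃ u, m * u ≡ 1 [MOD 2 ^ (s + n)] := by
    obtain ⟨u, -, hu⟩ := Nat.exists_mul_mod_eq_one_of_coprime hcop
      (Nat.one_lt_pow (by omega) (by norm_num))
    exact ⟨u, by
      unfold Nat.ModEq
      rw [hu, Nat.mod_eq_of_lt (Nat.one_lt_pow (by omega) (by norm_num))]⟩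
  obtain ⟨t, ht⟩ : ∃ t, m * u = 1 + 2 ^ (s + n) * t := by
    refine ⟨m * u / 2 ^ (s + n), ?_⟩
    have h1 := Nat.div_add_mod (m * u) (2 ^ (s + n))
    have h2 : m * u % 2 ^ (s + n) = 1 := by
      have := hu
      unfold Nat.ModEq at this
      rw [this, Nat.mod_eq_of_lt (Nat.one_lt_pow (by omega) (by norm_num))]
    omega
  set y2 := y ^ (m * u) with hy2
  have hy2a : y2 * a * y2⁻¹ = a ^ j := by
    rw [hy2, fuse_conj_pow a y j hy, pow_eq_pow_iff_modEq, hao, ht, pow_add, pow_one]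
    have h1 : (2 : ℕ) ^ (s + n) = 2 ^ (n - 2) * 2 ^ (s + 2) := by
      rw [← pow_add]; congr 1; omega
    rw [h1, mul_assoc, pow_mul]
    have h2 := (hjt.pow (2 ^ (s + 2) * t)).mul_left j
    simpa using h2
  have hy2o : y2 ^ 2 ^ s = 1 := by
    rw [hy2, ← pow_mul]
    have : m * u * 2 ^ s = (2 ^ s * m) * u := by ring
    rw [this, pow_mul, ← hsm, pow_orderOf_eq_one, one_pow]
  have hy2N : y2 ∈ N := fuse_mem_normalizer a y2 (hy2a ▸ Subgroup.pow_mem _ (mem_zpowers a) _)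
  let P' : Sylow 2 N := P.subtype hPN
  set z : N := ⟨y2, hy2N⟩ with hz
  have hzo : z ^ 2 ^ s = 1 := Subtype.ext (by simpa using hy2o)
  have hpg : IsPGroup 2 (zpowers z) := by
    rintro ⟨g, hg⟩
    obtain ⟨i, rfl⟩ := mem_zpowers_iff.1 hg
    refine ⟨s, Subtype.ext ?_⟩
    show (z ^ i) ^ 2 ^ s = 1
    rw [← zpow_natCast, ← zpow_mul, mul_comm, zpow_mul, zpow_natCast, hzo, one_zpow]
  obtain ⟨Q, hQ⟩ := hpg.exists_le_sylow
  obtain ⟨w, hw⟩ := MulAction.exists_smul_eq N Q P'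
  have h3 : MulAut.conj w • z ∈ MulAut.conj w • (Q : Subgroup N) :=
    smul_mem_pointwise_smul _ _ _ (hQ (mem_zpowers z))
  rw [← Sylow.coe_subgroup_smul, hw, Sylow.coe_subtype, mem_subgroupOf] at h3
  have h4 : (w : G) * y2 * (w : G)⁻¹ ∈ (P : Subgroup G) := by
    simpa [MulAut.smul_def] using h3
  obtain ⟨r, hr⟩ : ∃ r : ℤ, (w : G)⁻¹ * a * (w : G) = a ^ r := by
    have h5 : (w : G)⁻¹ ∈ N := N.inv_mem w.2
    have h6 := (mem_normalizer_iff.1 h5 a).1 (mem_zpowers a)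
    rw [inv_inv] at h6
    obtain ⟨r, hr⟩ := mem_zpowers_iff.1 h6
    exact ⟨r, hr.symm⟩
  have h7 : ((w : G) * y2 * (w : G)⁻¹) * a * ((w : G) * y2 * (w : G)⁻¹)⁻¹ = a ^ j := by
    have h8 : ((w : G) * y2 * (w : G)⁻¹) * a * ((w : G) * y2 * (w : G)⁻¹)⁻¹
        = (w : G) * (y2 * ((w : G)⁻¹ * a * (w : G)) * y2⁻¹) * (w : G)⁻¹ := by group
    have h10 : (a ^ j) ^ r = (a ^ r) ^ j := by
      rw [← zpow_natCast (a ^ r), ← zpow_natCast a j, ← zpow_mul, ← zpow_mul, mul_comm]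
    have h11 : (w : G) * ((w : G)⁻¹ * a * (w : G)) * (w : G)⁻¹ = a := by group
    rw [h8, hr, ← conj_zpow, hy2a, h10, ← hr, ← conj_pow, h11]
  rcases hPact _ h4 with h9 | h9
  · left; rw [← h7, h9]
  · right; rw [← h7, h9]

end Cfsg.Agent.Lib.Helper19.FV
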