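import Mathlib
import Cfsg.Agent.Lib.Helper19.FV.FUSE

set_option autoImplicit false

/-! Ladder FV (S4923), rung CENT. -/

namespace Cfsg.Agent.Lib.Helper19.FV

open Subgroup

/-- the centre of a 2-group of maximal class given by generators has exponent 2 -/
theorem sq_eq_one_of_central {S : Type*} [Group S] [Finite S] (n : ℕ) (hn : 3 ≤ n)
    (hS : Nat.card S = 2 ^ n) (a b : S) (ha : orderOf a = 2 ^ (n - 1))
    (hb : b ∉ Subgroup.zpowers a) (ε : ℕ)
    (hε : ε = 2 ^ (n - 1) - 1 ∨ (4 ≤ n ∧ ε = 2 ^ (n - 2) - 1)) (hba : b * a * b⁻¹ = a ^ ε)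
    (c : S) (hc : ∀ s : S, c * s = s * c) : c ^ 2 = 1 := by
  classical
  -- arithmetic of `ε`
  obtain ⟨o, ho, hεo, hεlt⟩ : ∃ o, Odd o ∧ ε = 2 * o + 1 ∧ ε < 2 ^ (n - 1) := by
    rcases hε with rfl | ⟨hn4, rfl⟩
    · obtain ⟨e, rfl⟩ : ∃ e, n = e + 3 := ⟨n - 3, by omega⟩
      have e1 : e + 3 - 1 = e + 2 := by omega
      rw [e1]
      have p2 : (2 : ℕ) ^ (e + 2) = 4 * 2 ^ e := by rw [pow_add]; ring
      have h0 : 0 < 2 ^ e := by positivity
      exact ⟨2 * 2 ^ e - 1, ⟨2 ^ e - 1, by omega⟩, by omega, by omega⟩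
    · obtain ⟨e, rfl⟩ : ∃ e, n = e + 4 := ⟨n - 4, by omega⟩
      have e1 : e + 4 - 1 = e + 3 := by omega
      have e2 : e + 4 - 2 = e + 2 := by omega
      rw [e1, e2]
      have p2 : (2 : ℕ) ^ (e + 2) = 4 * 2 ^ e := by rw [pow_add]; ring
      have p3 : (2 : ℕ) ^ (e + 3) = 8 * 2 ^ e := by rw [pow_add]; ring
      have h0 : 0 < 2 ^ e := by positivity
      exact ⟨2 * 2 ^ e - 1, ⟨2 ^ e - 1, by omega⟩, by omega, by omega⟩
  have ho1 : 1 ≤ o := by
    rcases ho with ⟨r, rfl⟩; omega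
  have hsplit := fuse_split (⊤ : Subgroup S) n (by omega) (by rw [card_top, hS]) a b
    (mem_top a) (mem_top b) ha hb c (mem_top c)
  rcases hsplit with h1 | ⟨d, hd, rfl⟩
  · obtain ⟨i, rfl⟩ := mem_zpowers_iff.1 h1
    have h2 : b * a ^ i * b⁻¹ = (a ^ i) ^ ε := by
      rw [← conj_zpow, hba, ← zpow_natCast (a ^ i), ← zpow_natCast a ε, ← zpow_mul, ← zpow_mul,
        mul_comm]
    have h3 : b * a ^ i * b⁻¹ = a ^ i := by
      rw [← hc b]; group
    have h4 : ((a ^ i) ^ 2) ^ o = 1 := by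
      rw [h3, hεo, pow_succ, pow_mul] at h2
      exact (right_eq_mul.1 h2)
    have h5 : ((a ^ i) ^ 2) ^ 2 ^ (n - 1) = 1 := by
      have h8 : (a ^ i) ^ 2 ^ (n - 1) = 1 := by
        rw [← zpow_natCast, ← zpow_mul, mul_comm, zpow_mul, zpow_natCast, ← ha,
          pow_orderOf_eq_one, one_zpow]
      rw [← pow_mul, mul_comm, pow_mul, h8, one_pow]
    have h6 := pow_gcd_eq_one.2 ⟨h4, h5⟩
    have h7 : Nat.gcd o (2 ^ (n - 1)) = 1 :=
      Nat.Coprime.pow_right _ (Nat.coprime_two_right.2 ho)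
    rwa [h7, pow_one] at h6
  · exfalso
    obtain ⟨i, rfl⟩ := mem_zpowers_iff.1 hd
    have h2 : a ^ i * a = a * a ^ i := by
      rw [← zpow_add_one, ← zpow_one_add, add_comm]
    have h3 : b * a ^ i * a * (b * a ^ i)⁻¹ = a ^ ε := by
      have : b * a ^ i * a * (b * a ^ i)⁻¹ = b * a * b⁻¹ := by
        rw [mul_assoc b, h2]; group
      rw [this, hba]
    have h4 : b * a ^ i * a * (b * a ^ i)⁻¹ = a := by
      rw [hc a]; group
    have h5 : a ^ ε = a ^ 1 := by rw [← h3, h4, pow_one]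
    rw [pow_eq_pow_iff_modEq, ha] at h5
    have h6 : ε = 1 := by
      have h7 : 1 < 2 ^ (n - 1) := Nat.one_lt_pow (by omega) (by norm_num)
      have := h5
      unfold Nat.ModEq at this
      rwa [Nat.mod_eq_of_lt hεlt, Nat.mod_eq_of_lt h7] at this
    omega

end Cfsg.Agent.Lib.Helper19.FV
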