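import Mathlib

set_option autoImplicit false
set_option linter.unusedSectionVars false
set_option linter.unusedVariables false

namespace Cfsg.Agent.Lib.Helper19.FV

theorem cheb_plus (ζ : ℂ) (hζ : ζ ≠ 0) (j : ℕ) :
    ζ ^ j + (ζ⁻¹) ^ j ∈ IntermediateField.adjoin ℚ ({ζ + ζ⁻¹} : Set ℂ) := by
  have ht : ζ + ζ⁻¹ ∈ IntermediateField.adjoin ℚ ({ζ + ζ⁻¹} : Set ℂ) :=
    IntermediateField.mem_adjoin_simple_self ℚ _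
  have hw : ζ * ζ⁻¹ = 1 := mul_inv_cancel₀ hζ
  induction j using Nat.twoStepInduction with
  | zero =>
    have : ζ ^ 0 + (ζ⁻¹) ^ 0 = ((2 : ℕ) : ℂ) := by norm_num
    rw [this]
    exact natCast_mem _ 2
  | one => simpa using ht
  | more j h0 h1 =>
    have : ζ ^ (j + 2) + (ζ⁻¹) ^ (j + 2)
        = (ζ + ζ⁻¹) * (ζ ^ (j + 1) + (ζ⁻¹) ^ (j + 1)) - (ζ ^ j + (ζ⁻¹) ^ j) := by
      linear_combination (-(ζ ^ j + (ζ⁻¹) ^ j)) * hw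
    rw [this]
    exact sub_mem (mul_mem ht h1) h0

theorem cheb_minus (ζ : ℂ) (hζ : ζ ≠ 0) (j : ℕ) :
    ζ ^ j + (-1) ^ j * (ζ⁻¹) ^ j ∈ IntermediateField.adjoin ℚ ({ζ - ζ⁻¹} : Set ℂ) := by
  have ht : ζ - ζ⁻¹ ∈ IntermediateField.adjoin ℚ ({ζ - ζ⁻¹} : Set ℂ) :=
    IntermediateField.mem_adjoin_simple_self ℚ _
  have hw : ζ * ζ⁻¹ = 1 := mul_inv_cancel₀ hζ
  induction j using Nat.twoStepInduction with
  | zero =>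
    have : ζ ^ 0 + (-1) ^ 0 * (ζ⁻¹) ^ 0 = ((2 : ℕ) : ℂ) := by norm_num
    rw [this]
    exact natCast_mem _ 2
  | one =>
    have : ζ ^ 1 + (-1) ^ 1 * (ζ⁻¹) ^ 1 = ζ - ζ⁻¹ := by ring
    rw [this]; exact ht
  | more j h0 h1 =>
    have : ζ ^ (j + 2) + (-1) ^ (j + 2) * (ζ⁻¹) ^ (j + 2)
        = (ζ - ζ⁻¹) * (ζ ^ (j + 1) + (-1) ^ (j + 1) * (ζ⁻¹) ^ (j + 1))
          + (ζ ^ j + (-1) ^ j * (ζ⁻¹) ^ j) := by
      linear_combination ((ζ ^ j + (-1) ^ j * (ζ⁻¹) ^ j)) * hw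
    rw [this]
    exact add_mem (mul_mem ht h1) h0

end Cfsg.Agent.Lib.Helper19.FV
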