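import Mathlib
import Cfsg.Prelude.Def_Characters
import Cfsg.Agent.Lib.Helper19.FV.Base
import Cfsg.Agent.Lib.Helper79.GaloisChar
import Cfsg.Agent.Lib.Helper20.CharColumn

set_option autoImplicit false

/-! Ladder FV (S4923), rung DOWN. -/

namespace Cfsg.Agent.Lib.Helper19.FV

open Cfsg
open scoped ComplexConjugate

theorem down_geom (F : IntermediateField ℚ ℂ) (w : ℂ) (N : ℕ) (hw : w ^ N = 1) :
    ∑ j ∈ Finset.range N, w ^ j ∈ F := by
  by_cases h1 : w = 1
  · rw [h1]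
    simp only [one_pow, Finset.sum_const, Finset.card_range, nsmul_eq_mul, mul_one]
    exact F.natCast_mem N
  · have h2 : (∑ j ∈ Finset.range N, w ^ j) * (w - 1) = 0 := by
      rw [geom_sum_mul, hw, sub_self]
    rcases mul_eq_zero.1 h2 with h | h
    · rw [h]; exact F.zero_mem
    · exact absurd (sub_eq_zero.1 h) h1

open Classical in
theorem sum_mem {G : Type*} [Group G] [Finite G] (g : G) (N : ℕ) (hN : orderOf g = N)
    (ζ : ℂ) (hζ : IsPrimitiveRoot ζ N) :
    (∑ j ∈ (Finset.range N).filter (fun j => IsConj g (g ^ j)), ζ ^ j) ∈ KK g := by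
  have := Fintype.ofFinite G
  have := Cfsg.Agent.Lib.Helper20.finite_irrCharacter (G := G)
  have := Fintype.ofFinite (IrrCharacter G)
  have hNpos : 0 < N := by rw [← hN]; exact orderOf_pos g
  have hgN : g ^ N = 1 := by rw [← hN]; exact pow_orderOf_eq_one g
  set c : ℂ := (Nat.card (Subgroup.centralizer ({g} : Set G)) : ℂ) with hc
  have hc0 : c ≠ 0 := by
    rw [hc]; exact_mod_cast Nat.card_pos.ne'
  have hval : ∀ χ : IrrCharacter G, (χ : G → ℂ) g ∈ KK g := fun χ =>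
    IntermediateField.subset_adjoin ℚ _ ⟨χ, rfl⟩
  have hW : ∀ χ : IrrCharacter G,
      ∑ j ∈ Finset.range N, ζ ^ j * conj ((χ : G → ℂ) (g ^ j)) ∈ KK g := by
    intro χ
    have hχ : IsCharacter G (χ : G → ℂ) := Cfsg.Agent.Lib.Helper79.IsIrrCharacter.isCharacter χ.2
    obtain ⟨s, m, h1, -, h3⟩ :=
      Cfsg.Agent.Lib.Helper79.IsCharacter.exists_weights _ hχ g N hNpos hgN
    have e : ∑ j ∈ Finset.range N, ζ ^ j * conj ((χ : G → ℂ) (g ^ j))
        = ∑ μ ∈ s, (m μ : ℂ) * ∑ j ∈ Finset.range N, (ζ * conj μ) ^ j := by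
      simp only [h3, map_sum, map_mul, map_natCast, map_pow, Finset.mul_sum]
      rw [Finset.sum_comm]
      refine Finset.sum_congr rfl (fun μ _ => Finset.sum_congr rfl (fun j _ => ?_))
      rw [mul_pow]; ring
    rw [e]
    refine (KK g).sum_mem (fun μ hμ => (KK g).mul_mem ((KK g).natCast_mem _) ?_)
    apply down_geom
    rw [mul_pow, hζ.pow_eq_one, one_mul, ← map_pow, h1 μ hμ, map_one]
  have key : c * ∑ j ∈ (Finset.range N).filter (fun j => IsConj g (g ^ j)), ζ ^ j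
      = ∑ χ : IrrCharacter G, (χ : G → ℂ) g *
          ∑ j ∈ Finset.range N, ζ ^ j * conj ((χ : G → ℂ) (g ^ j)) := by
    simp only [Finset.mul_sum]
    rw [Finset.sum_comm, Finset.sum_filter]
    refine Finset.sum_congr rfl (fun j _ => ?_)
    have h := Cfsg.Agent.Lib.Helper20.sum_irr_mul_conj g (g ^ j)
    have e : ∑ χ : IrrCharacter G, (χ : G → ℂ) g * (ζ ^ j * conj ((χ : G → ℂ) (g ^ j)))
        = ζ ^ j * ∑ χ : IrrCharacter G, (χ : G → ℂ) g * conj ((χ : G → ℂ) (g ^ j)) := by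
      rw [Finset.mul_sum]
      exact Finset.sum_congr rfl (fun χ _ => by ring)
    rw [e, h]
    split_ifs
    · rw [mul_comm]
    · rw [mul_zero]
  have h2 : ∑ j ∈ (Finset.range N).filter (fun j => IsConj g (g ^ j)), ζ ^ j
      = c⁻¹ * ∑ χ : IrrCharacter G, (χ : G → ℂ) g *
          ∑ j ∈ Finset.range N, ζ ^ j * conj ((χ : G → ℂ) (g ^ j)) := by
    rw [← key, ← mul_assoc, inv_mul_cancel₀ hc0, one_mul]
  have h3 : c⁻¹ * ∑ χ : IrrCharacter G, (χ : G → ℂ) g *
      ∑ j ∈ Finset.range N, ζ ^ j * conj ((χ : G → ℂ) (g ^ j)) ∈ KK g := by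
    refine (KK g).mul_mem ((KK g).inv_mem ((KK g).natCast_mem _)) ?_
    exact (KK g).sum_mem (fun χ _ => (KK g).mul_mem (hval χ) (hW χ))
  rw [← h2] at h3
  convert h3

end Cfsg.Agent.Lib.Helper19.FV
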