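import Mathlib

set_option autoImplicit false
set_option linter.unusedSectionVars false
set_option linter.unusedVariables false
set_option linter.style.haveILetI false

namespace Cfsg.Agent.Lib.Helper19.FV

theorem even_index {G : Type*} [Group G] [Finite G] (P : Sylow 2 G) (a : G)
    (ha : a ∈ (P : Subgroup G)) (ha4 : a ^ 2 ≠ 1)
    (hZ : ∀ c ∈ (P : Subgroup G), (∀ s ∈ (P : Subgroup G), c * s = s * c) → c ^ 2 = 1) :
    2 ∣ (Subgroup.centralizer ({a} : Set G)).index := by
  classical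
  haveI : Fact (Nat.Prime 2) := ⟨Nat.prime_two⟩
  by_contra hodd
  obtain ⟨C, hC⟩ : ∃ C : Subgroup G, C = Subgroup.centralizer ({a} : Set G) := ⟨_, rfl⟩
  rw [← hC] at hodd
  have hfix := P.2.nonempty_fixed_point_of_prime_not_dvd_card (G ⧸ C)
    (by rwa [← Subgroup.index_eq_card])
  obtain ⟨q, hq⟩ := hfix
  obtain ⟨g, rfl⟩ := QuotientGroup.mk_surjective q
  obtain ⟨c, hc⟩ : ∃ c, c = g * a * g⁻¹ := ⟨_, rfl⟩
  have hcomm : ∀ s ∈ (P : Subgroup G), c * s = s * c := by
    intro s hs
    have h1 : (⟨s, hs⟩ : (P : Subgroup G)) • (g : G ⧸ C) = (g : G ⧸ C) := hq ⟨s, hs⟩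
    have h2 : ((s * g : G) : G ⧸ C) = (g : G ⧸ C) := h1
    rw [QuotientGroup.eq, hC, Subgroup.mem_centralizer_singleton_iff] at h2
    -- h2 : (s*g)⁻¹ * g * a = a * ((s*g)⁻¹ * g)
    have h3 : s⁻¹ * c = c * s⁻¹ := by
      rw [hc]
      calc s⁻¹ * (g * a * g⁻¹) = g * ((s * g)⁻¹ * g * a) * g⁻¹ := by group
        _ = g * a * g⁻¹ * s⁻¹ := by rw [h2]; group
    calc c * s = s * (s⁻¹ * c) * s := by group
      _ = s * c := by rw [h3]; group
  have hzp : IsPGroup 2 (Subgroup.zpowers c) := by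
    have h1 : IsPGroup 2 (Subgroup.zpowers a) :=
      P.2.to_le (by rw [Subgroup.zpowers_le]; exact ha)
    have h2 := h1.map (MulAut.conj g).toMonoidHom
    rw [MonoidHom.map_zpowers] at h2
    have h3 : (MulAut.conj g).toMonoidHom a = c := by
      rw [hc]; simp [MulAut.conj_apply]
    rwa [h3] at h2
  have hnorm : Subgroup.zpowers c ≤ Subgroup.normalizer ((P : Subgroup G) : Set G) := by
    rw [Subgroup.zpowers_le, Subgroup.mem_normalizer_iff]
    intro s
    constructor
    · intro hs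
      rw [hcomm s hs, mul_inv_cancel_right]; exact hs
    · intro hs
      have h1 := hcomm _ hs
      have h3 : s = c * s * c⁻¹ := by
        have h4 : c * (c * s * c⁻¹) = c * s := by rw [h1]; group
        exact (mul_left_cancel h4).symm
      rw [h3]; exact hs
  have hsup : IsPGroup 2 (Subgroup.zpowers c ⊔ (P : Subgroup G) : Subgroup G) :=
    hzp.to_sup_of_normal_right' P.2 hnorm
  have heq := P.is_maximal' hsup le_sup_right
  have hcP : c ∈ (P : Subgroup G) := by
    rw [← heq]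
    exact (le_sup_left : Subgroup.zpowers c ≤ _) (Subgroup.mem_zpowers c)
  have hc2 := hZ c hcP hcomm
  apply ha4
  rw [hc, conj_pow] at hc2
  have : a ^ 2 = g⁻¹ * (g * a ^ 2 * g⁻¹) * g := by group
  rw [this, hc2]; group

end Cfsg.Agent.Lib.Helper19.FV
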