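import Mathlib
import Cfsg.Prelude.Def_Characters
import Cfsg.Agent.Lib.Helper19.FV.Base
import Cfsg.Agent.Lib.Helper79.GaloisChar
import Cfsg.Agent.Lib.Helper20.CharColumn

set_option autoImplicit false
set_option linter.unusedSectionVars false
set_option linter.unusedVariables false

namespace Cfsg.Agent.Lib.Helper19.FV

open Cfsg

/-- the fixed field of a ring automorphism of `ℂ` -/
noncomputable def fixFixedField (τ : ℂ ≃+* ℂ) : IntermediateField ℚ ℂ where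
  carrier := {z | τ z = z}
  mul_mem' := fun {a b} ha hb => by
    simp only [Set.mem_ofPred_eq] at *; rw [map_mul, ha, hb]
  one_mem' := map_one τ
  add_mem' := fun {a b} ha hb => by
    simp only [Set.mem_ofPred_eq] at *; rw [map_add, ha, hb]
  zero_mem' := map_zero τ
  algebraMap_mem' := fun r => by
    simp only [Set.mem_ofPred_eq, eq_ratCast, map_ratCast]
  inv_mem' := fun a ha => by
    simp only [Set.mem_ofPred_eq] at *; rw [map_inv₀, ha]

theorem not_mem_adjoin_of_fixed (S : Set ℂ) (τ : ℂ ≃+* ℂ) (hS : ∀ z ∈ S, τ z = z) (x : ℂ)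
    (hx : τ x ≠ x) : x ∉ IntermediateField.adjoin ℚ S := by
  intro hmem
  have hle : IntermediateField.adjoin ℚ S ≤ fixFixedField τ := by
    rw [IntermediateField.adjoin_le_iff]
    intro z hz
    exact hS z hz
  exact hx (hle hmem)

/-- `n ≥ 4`, `N = 2^(n-1)`: an element `g` with `g^N = 1` conjugate to `g^(N/2+1)` has neither
`ζ + ζ⁻¹` nor `ζ - ζ⁻¹` in its field of values. -/
theorem not_mem_KK {G : Type*} [Group G] [Finite G] (n : ℕ) (hn : 4 ≤ n) (ζ : ℂ)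
    (hζ : IsPrimitiveRoot ζ (2 ^ (n - 1))) (g : G) (hg : g ^ 2 ^ (n - 1) = 1)
    (hconj : IsConj g (g ^ (2 ^ (n - 2) + 1))) :
    ζ + ζ⁻¹ ∉ KK g ∧ ζ - ζ⁻¹ ∉ KK g := by
  obtain ⟨m, rfl⟩ : ∃ m, n = m + 4 := ⟨n - 4, by omega⟩
  have e1 : m + 4 - 1 = m + 3 := by omega
  have e2 : m + 4 - 2 = m + 2 := by omega
  rw [e1] at hζ hg
  rw [e2] at hconj
  have hcop : (2 ^ (m + 2) + 1).Coprime (2 ^ (m + 3)) := by
    apply Nat.Coprime.pow_right
    rw [Nat.coprime_two_right]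
    exact ⟨2 ^ (m + 1), by ring⟩
  obtain ⟨τ, hτ1, hτ2⟩ := Cfsg.Agent.Lib.Helper79.exists_galois (2 ^ (m + 3)) (2 ^ (m + 2) + 1)
    (by positivity) hcop
  have hfix : ∀ z ∈ {z : ℂ | ∃ χ : Cfsg.IrrCharacter G, (χ : G → ℂ) g = z}, τ z = z := by
    rintro z ⟨χ, rfl⟩
    have hχ := Cfsg.Agent.Lib.Helper20.isCharacter_of_isIrrCharacter χ.2
    rw [hτ2 G χ hχ g hg]
    exact (Cfsg.Agent.Lib.Helper20.isClassFunction_isConj
      (Cfsg.Agent.Lib.Helper20.isClassFunction_of_isCharacter hχ) hconj).symm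
  have hζ0 : ζ ≠ 0 := hζ.ne_zero (by positivity)
  have hlt : ∀ j, 0 < j → j < 2 ^ (m + 3) → ζ ^ j ≠ 1 := fun j h0 h1 =>
    hζ.pow_ne_one_of_pos_of_lt (Nat.pos_iff_ne_zero.1 h0) h1
  have h8 : 8 ≤ 2 ^ (m + 3) := by
    have : 1 ≤ 2 ^ m := Nat.one_le_two_pow
    rw [pow_add]; omega
  have hhalf : ζ ^ (2 ^ (m + 2)) = -1 := by
    have h1 : (ζ ^ (2 ^ (m + 2))) ^ 2 = 1 := by
      rw [← pow_mul, ← pow_succ]; exact hζ.pow_eq_one
    have h2 : ζ ^ (2 ^ (m + 2)) ≠ 1 := hlt _ (by positivity) (by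
      apply Nat.pow_lt_pow_right <;> omega)
    rcases sq_eq_one_iff.mp h1 with h | h
    · exact absurd h h2
    · exact h
  have hτζ : τ ζ = -ζ := by
    rw [hτ1 ζ hζ.pow_eq_one, pow_succ, hhalf]; ring
  have hτi : τ ζ⁻¹ = -ζ⁻¹ := by
    rw [map_inv₀, hτζ, inv_neg]
  have hw : ζ * ζ⁻¹ = 1 := mul_inv_cancel₀ hζ0
  constructor
  · apply not_mem_adjoin_of_fixed _ τ hfix
    rw [map_add, hτζ, hτi]
    intro h
    have h0 : ζ + ζ⁻¹ = 0 := by linear_combination (-1 / 2 : ℂ) * h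
    have h2 : ζ ^ 2 = -1 := by linear_combination ζ * h0 - hw
    apply hlt 4 (by norm_num) (by omega)
    calc ζ ^ 4 = (ζ ^ 2) ^ 2 := by ring
      _ = 1 := by rw [h2]; norm_num
  · apply not_mem_adjoin_of_fixed _ τ hfix
    rw [map_sub, hτζ, hτi]
    intro h
    have h0 : ζ - ζ⁻¹ = 0 := by linear_combination (-1 / 2 : ℂ) * h
    have h2 : ζ ^ 2 = 1 := by linear_combination ζ * h0 + hw
    exact hlt 2 (by norm_num) (by omega) h2

end Cfsg.Agent.Lib.Helper19.FV
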