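import Mathlib

set_option autoImplicit false
set_option linter.unusedSectionVars false
set_option linter.unusedVariables false
set_option linter.style.haveILetI false
set_option linter.deprecated false

open scoped commutatorElement

namespace Cfsg.Agent.Lib.Helper19.FV

theorem index_commutator_of_card_eight {S : Type*} [Group S] [Finite S] (hS : Nat.card S = 8)
    (hna : ∃ x y : S, x * y ≠ y * x) : (commutator S).index = 4 := by
  classical
  obtain ⟨x, y, hxy⟩ := hna
  haveI : Fact (Nat.Prime 2) := ⟨Nat.prime_two⟩
  have hp : IsPGroup 2 S := IsPGroup.of_card (n := 3) (by rw [hS]; norm_num)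
  haveI : Nontrivial S := by
    refine ⟨x, y, ?_⟩
    rintro rfl
    exact hxy rfl
  have hZnt : Nontrivial (Subgroup.center S) := hp.center_nontrivial
  have hZdvd : Nat.card (Subgroup.center S) ∣ 2 ^ 3 := by
    have := Subgroup.card_subgroup_dvd_card (Subgroup.center S)
    rw [hS] at this
    simpa using this
  obtain ⟨k, hk, hkc⟩ := (Nat.dvd_prime_pow Nat.prime_two).1 hZdvd
  have hidx : Nat.card (Subgroup.center S) * (Subgroup.center S).index = 8 := by
    rw [Subgroup.card_mul_index, hS]
  have hZ2 : Nat.card (Subgroup.center S) = 2 := by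
    interval_cases k
    · exfalso
      have : 1 < Nat.card (Subgroup.center S) := Finite.one_lt_card
      rw [hkc] at this
      norm_num at this
    · simpa using hkc
    · exfalso
      rw [hkc] at hidx
      have h2 : Nat.card (S ⧸ Subgroup.center S) = 2 := by
        rw [← Subgroup.index_eq_card]; omega
      haveI : IsCyclic (S ⧸ Subgroup.center S) := isCyclic_of_prime_card h2
      exact hxy (commutative_of_cyclic_center_quotient (QuotientGroup.mk' (Subgroup.center S))
        (by rw [QuotientGroup.ker_mk']) x y)
    · exfalso
      have htop : Subgroup.center S = ⊤ := by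
        apply Subgroup.eq_top_of_card_eq
        rw [hkc, hS]; norm_num
      have hx : x ∈ Subgroup.center S := by rw [htop]; exact Subgroup.mem_top x
      exact hxy ((Subgroup.mem_center_iff.1 hx y).symm)
  have hq4 : Nat.card (S ⧸ Subgroup.center S) = 2 ^ 2 := by
    rw [hZ2] at hidx
    rw [← Subgroup.index_eq_card]; omega
  have hqc := IsPGroup.commutative_of_card_eq_prime_sq hq4
  have hle : commutator S ≤ Subgroup.center S := by
    rw [commutator_eq_closure, Subgroup.closure_le]
    rintro _ ⟨a, b, rfl⟩
    rw [SetLike.mem_coe, ← QuotientGroup.eq_one_iff]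
    rw [commutatorElement_def]
    simp only [QuotientGroup.mk_mul, QuotientGroup.mk_inv]
    rw [hqc (a : S ⧸ Subgroup.center S) b]
    group
  have hne : commutator S ≠ ⊥ := by
    intro h
    apply hxy
    have h1 : (⁅x, y⁆ : S) ∈ commutator S := by
      rw [commutator_eq_closure]
      exact Subgroup.subset_closure ⟨x, y, rfl⟩
    rw [h, Subgroup.mem_bot, commutatorElement_eq_one_iff_mul_comm] at h1
    exact h1
  have hc2 : Nat.card (commutator S) = 2 := by
    have h1 : Nat.card (commutator S) ∣ 2 := by
      rw [← hZ2]; exact Subgroup.card_dvd_of_le hle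
    rcases (Nat.dvd_prime Nat.prime_two).1 h1 with h | h
    · exact absurd (Subgroup.card_eq_one.1 h) hne
    · exact h
  have := Subgroup.card_mul_index (commutator S)
  rw [hc2, hS] at this
  omega

end Cfsg.Agent.Lib.Helper19.FV
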