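import Mathlib
import Cfsg.Agent.Lib.Helper19.FV.FUSE

set_option autoImplicit false

/-! Ladder FV (S4923), rung POW. -/

namespace Cfsg.Agent.Lib.Helper19.FV

open Subgroup

theorem pow_arith (n k : ℕ) (hn : 3 ≤ n) (hk : k < 2 ^ (n - 1)) (h1 : k ≠ 1)
    (h : k ^ 2 ≡ 1 [MOD 2 ^ (n - 1)]) :
    k = 2 ^ (n - 1) - 1 ∨ k = 2 ^ (n - 2) - 1 ∨ k = 2 ^ (n - 2) + 1 := by
  obtain ⟨e, rfl⟩ : ∃ e, n = e + 3 := ⟨n - 3, by omega⟩
  have e1 : e + 3 - 1 = e + 2 := by omega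
  have e2 : e + 3 - 2 = e + 1 := by omega
  rw [e1] at hk h ⊢
  rw [e2]
  have p2 : (2 : ℕ) ^ (e + 2) = 4 * 2 ^ e := by rw [pow_add]; ring
  have p1 : (2 : ℕ) ^ (e + 1) = 2 * 2 ^ e := by rw [pow_add]; ring
  rw [p2] at hk h ⊢
  rw [p1]
  have hcop : ∀ i, Odd i → Nat.Coprime (2 ^ e) i := fun i hi =>
    Nat.Coprime.pow_left _ (Nat.coprime_two_left.2 hi)
  have hM : 0 < 2 ^ e := by positivity
  generalize 2 ^ e = M at *
  have hodd : Odd k := by
    have h2 : k ^ 2 ≡ 1 [MOD 2] := h.of_dvd ⟨2 * M, by ring⟩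
    have h3 : Odd (k ^ 2) := Nat.odd_iff.2 h2
    exact (Nat.odd_pow_iff (by norm_num)).1 h3
  obtain ⟨i, rfl⟩ := hodd
  have hdvd : 4 * M ∣ (2 * i + 1) ^ 2 - 1 :=
    (Nat.modEq_iff_dvd' (Nat.one_le_pow _ _ (by omega))).1 h.symm
  have h4 : (2 * i + 1) ^ 2 - 1 = 4 * (i * (i + 1)) := by
    have : (2 * i + 1) ^ 2 = 4 * (i * (i + 1)) + 1 := by ring
    omega
  rw [h4] at hdvd
  have h5 : M ∣ i * (i + 1) := Nat.dvd_of_mul_dvd_mul_left (by norm_num) hdvd
  rcases Nat.even_or_odd i with hi | hi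
  · have h6 : M ∣ i := (hcop (i + 1) hi.add_one).dvd_of_dvd_mul_right h5
    obtain ⟨c, rfl⟩ := h6
    have hc : c < 2 := by
      by_contra hc
      have : M * 2 ≤ M * c := Nat.mul_le_mul_left _ (by omega)
      omega
    interval_cases c
    · simp at h1
    · right; right; omega
  · have h6 : M ∣ i + 1 := (hcop i hi).dvd_of_dvd_mul_left h5
    obtain ⟨c, hc⟩ := h6
    have hc2 : c ≤ 2 := by
      by_contra hcc
      have : M * 3 ≤ M * c := Nat.mul_le_mul_left _ (by omega)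
      omega
    interval_cases c
    · omega
    · right; left; omega
    · left; omega

/-- a non-central element of order `2^(n-1)` in a group of order `2^n` -/
theorem exists_conj_pow {S : Type*} [Group S] [Finite S] (n : ℕ) (hn : 4 ≤ n)
    (hS : Nat.card S = 2 ^ n) (g : S) (hg : orderOf g = 2 ^ (n - 1)) (hnc : ∃ x : S, x * g ≠ g * x) :
    ∃ (x : S) (k : ℕ), x * g * x⁻¹ = g ^ k ∧
      (k = 2 ^ (n - 1) - 1 ∨ k = 2 ^ (n - 2) - 1 ∨ k = 2 ^ (n - 2) + 1) := by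
  classical
  obtain ⟨x, hx⟩ := hnc
  have hidx : (zpowers g).index = 2 := by
    have h1 := (zpowers g).card_mul_index
    rw [hS, Nat.card_zpowers, hg] at h1
    have h2 : (2 : ℕ) ^ n = 2 ^ (n - 1) * 2 := by
      rw [← pow_succ]; congr 1; omega
    rw [h2] at h1
    exact Nat.eq_of_mul_eq_mul_left (by positivity) h1
  have hnorm : (zpowers g).Normal := normal_of_index_eq_two hidx
  have h1 : x * g * x⁻¹ ∈ zpowers g := hnorm.conj_mem g (mem_zpowers g) x
  obtain ⟨k, hk, hkx⟩ : ∃ k, k < orderOf g ∧ g ^ k = x * g * x⁻¹ := by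
    have h2 : x * g * x⁻¹ ∈ Submonoid.powers g := (mem_powers_iff_mem_zpowers).2 h1
    rw [mem_powers_iff_mem_range_orderOf] at h2
    simpa using h2
  refine ⟨x, k, hkx.symm, ?_⟩
  rw [hg] at hk
  apply pow_arith n k (by omega) hk
  · rintro rfl
    apply hx
    rw [pow_one] at hkx
    calc x * g = (x * g * x⁻¹) * x := by group
      _ = g * x := by rw [← hkx]
  · have h3 : x ^ 2 ∈ zpowers g := sq_mem_of_index_two hidx x
    obtain ⟨i, hi⟩ := mem_zpowers_iff.1 h3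
    have h4 := fuse_conj_pow g x k hkx.symm 2
    rw [← hi] at h4
    have h5 : g ^ i * g * (g ^ i)⁻¹ = g := by
      have : g ^ i * g = g * g ^ i := by
        rw [← zpow_add_one, ← zpow_one_add, add_comm]
      rw [this]; group
    rw [h5] at h4
    have h6 : g ^ (k ^ 2) = g ^ 1 := by rw [← h4, pow_one]
    rw [pow_eq_pow_iff_modEq, hg] at h6
    exact h6

end Cfsg.Agent.Lib.Helper19.FV
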