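import Mathlib
import Cfsg.Prelude.Def_Characters
import Cfsg.Agent.Lib.Helper19.FV.Base
import Cfsg.Agent.Lib.Helper79.GaloisChar

set_option autoImplicit false

/-! Ladder FV (S4923), rung UP. -/

namespace Cfsg.Agent.Lib.Helper19.FV

open Cfsg

theorem val_mem {G : Type*} [Group G] [Finite G] (g : G) (N : ℕ) (hN : 0 < N) (hg : g ^ N = 1)
    (ζ : ℂ) (hζ : IsPrimitiveRoot ζ N) (ε : ℕ) (hconj : IsConj g (g ^ ε))
    (F : IntermediateField ℚ ℂ) (hF : ∀ j : ℕ, ζ ^ j + ζ ^ (j * ε) ∈ F)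
    (χ : Cfsg.IrrCharacter G) : (χ : G → ℂ) g ∈ F := by
  haveI : NeZero N := ⟨hN.ne'⟩
  have hχ : IsCharacter G (χ : G → ℂ) := Cfsg.Agent.Lib.Helper79.IsIrrCharacter.isCharacter χ.2
  obtain ⟨s, m, h1, -, h3⟩ := Cfsg.Agent.Lib.Helper79.IsCharacter.exists_weights _ hχ g N hN hg
  have hcl : (χ : G → ℂ) (g ^ ε) = (χ : G → ℂ) g := by
    obtain ⟨c, hc⟩ := isConj_iff.1 hconj
    rw [← hc]
    obtain ⟨d, ρ, hρ⟩ := hχ
    rw [← hρ]
    exact Representation.char_conj ρ g c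
  have e1 := h3 1
  have e2 := h3 ε
  rw [pow_one] at e1
  rw [hcl] at e2
  have e3 : (χ : G → ℂ) g = (2 : ℂ)⁻¹ * ∑ μ ∈ s, (m μ : ℂ) * (μ + μ ^ ε) := by
    have : ∑ μ ∈ s, (m μ : ℂ) * (μ + μ ^ ε) = (χ : G → ℂ) g + (χ : G → ℂ) g := by
      conv_rhs => rw [e1]; rhs; rw [← e1, e2]
      rw [← Finset.sum_add_distrib]
      refine Finset.sum_congr rfl (fun μ _ => ?_)
      ring
    rw [this]; ring
  rw [e3]
  refine F.mul_mem (F.inv_mem (by exact_mod_cast F.natCast_mem 2)) (F.sum_mem (fun μ hμ => ?_))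
  refine F.mul_mem (F.natCast_mem _) ?_
  obtain ⟨j, -, rfl⟩ := hζ.eq_pow_of_pow_eq_one (h1 μ hμ)
  rw [← pow_mul]
  exact hF j

end Cfsg.Agent.Lib.Helper19.FV
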