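import Mathlib
import Cfsg.Prelude.Def_Characters
import Cfsg.Agent.Lib.Helper19.FV.Base
import Cfsg.Agent.Lib.Helper19.FV.CHEB
import Cfsg.Agent.Lib.Helper19.FV.UP
import Cfsg.Agent.Lib.Helper19.FV.DOWN
import Cfsg.Agent.Lib.Helper19.FV.FIX
import Cfsg.Agent.Lib.Helper19.FV.EVEN
import Cfsg.Agent.Lib.Helper19.FV.FUSE
import Cfsg.Agent.Lib.Helper19.FV.ORD8
import Cfsg.Agent.Lib.Helper19.FV.POW
import Cfsg.Agent.Lib.Helper19.FV.CENT
import Cfsg.Agent.Lib.Helper19.FV.COMM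
import Cfsg.Agent.Lib.Helper59.TausskyClassify

set_option autoImplicit false

/-! Ladder FV (S4923): assembly. -/

namespace Cfsg.Agent.Lib.Helper19.FV

open Cfsg

theorem asm_pow_half {n : ℕ} (hn : 3 ≤ n) {ζ : ℂ} (hζ : IsPrimitiveRoot ζ (2 ^ (n - 1))) :
    ζ ^ 2 ^ (n - 2) = -1 := by
  have h1 : (ζ ^ 2 ^ (n - 2)) ^ 2 = 1 := by
    rw [← pow_mul, ← pow_succ, show n - 2 + 1 = n - 1 by omega]
    exact hζ.pow_eq_one
  have h2 : ζ ^ 2 ^ (n - 2) ≠ 1 := by
    intro h
    have := hζ.dvd_of_pow_eq_one _ h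
    have h3 : 2 ^ (n - 1) ≤ 2 ^ (n - 2) := Nat.le_of_dvd (by positivity) this
    have h4 : 2 ^ (n - 2) < 2 ^ (n - 1) := Nat.pow_lt_pow_right (by norm_num) (by omega)
    omega
  rw [sq] at h1
  rcases mul_self_eq_one_iff.1 h1 with h | h
  · exact absurd h h2
  · exact h

/-- numerical facts on `N = 2^(n-1)` -/
theorem asm_num {n : ℕ} (hn : 3 ≤ n) : 4 ≤ 2 ^ (n - 1) ∧ 2 ^ (n - 1) = 2 * 2 ^ (n - 2) ∧
    2 ≤ 2 ^ (n - 2) := by
  obtain ⟨m, rfl⟩ : ∃ m, n = m + 3 := ⟨n - 3, by omega⟩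
  have h1 : m + 3 - 1 = m + 2 := by omega
  have h2 : m + 3 - 2 = m + 1 := by omega
  rw [h1, h2]
  have : 1 ≤ 2 ^ m := Nat.one_le_two_pow
  refine ⟨?_, ?_, ?_⟩ <;> simp only [pow_succ] <;> omega

theorem asm_num4 {n : ℕ} (hn : 4 ≤ n) : 4 ≤ 2 ^ (n - 2) := by
  obtain ⟨m, rfl⟩ : ∃ m, n = m + 4 := ⟨n - 4, by omega⟩
  have h2 : m + 4 - 2 = m + 2 := by omega
  rw [h2]
  have : 1 ≤ 2 ^ m := Nat.one_le_two_pow
  simp only [pow_succ]; omega

/-- the field of values of a generator of the cyclic maximal subgroup -/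
theorem asm_field {G : Type*} [Group G] [Finite G] (P : Sylow 2 G) (n : ℕ) (hn : 3 ≤ n)
    (hP : Nat.card P = 2 ^ n) (ζ : ℂ) (hζ : IsPrimitiveRoot ζ (2 ^ (n - 1)))
    (a b : G) (ha : a ∈ (P : Subgroup G)) (hb : b ∈ (P : Subgroup G))
    (hao : orderOf a = 2 ^ (n - 1)) (hba : b ∉ Subgroup.zpowers a) (ε : ℕ) (hε1 : ε ≠ 1)
    (hεN : ε < 2 ^ (n - 1)) (hconj : b * a * b⁻¹ = a ^ ε) (x : ℂ) (hx : x = ζ + ζ ^ ε)
    (hF : ∀ j : ℕ, ζ ^ j + ζ ^ (j * ε) ∈ IntermediateField.adjoin ℚ ({x} : Set ℂ)) :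
    KK a = IntermediateField.adjoin ℚ ({x} : Set ℂ) := by
  classical
  obtain ⟨hN4, -, -⟩ := asm_num hn
  have hc : IsConj a (a ^ ε) := isConj_iff.2 ⟨b, hconj⟩
  apply le_antisymm
  · rw [IntermediateField.adjoin_le_iff]
    rintro z ⟨χ, rfl⟩
    exact val_mem a (2 ^ (n - 1)) (by positivity) (by rw [← hao]; exact pow_orderOf_eq_one a)
      ζ hζ ε hc _ hF χ
  · rw [IntermediateField.adjoin_le_iff, Set.singleton_subset_iff]
    have h1 := sum_mem a (2 ^ (n - 1)) hao ζ hζ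
    have h2 : (Finset.range (2 ^ (n - 1))).filter (fun j => IsConj a (a ^ j)) = {1, ε} := by
      ext j
      simp only [Finset.mem_filter, Finset.mem_range, Finset.mem_insert, Finset.mem_singleton]
      constructor
      · rintro ⟨hj, hcj⟩
        rcases fuse P n hn hP a b ha hb hao hba ε hconj j hcj with h | h
        · left
          have h3 : a ^ j = a ^ 1 := by rw [h, pow_one]
          exact pow_injOn_Iio_orderOf (by rw [hao]; exact hj) (by rw [hao]; show 1 < _; omega) h3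
        · right
          exact pow_injOn_Iio_orderOf (by rw [hao]; exact hj) (by rw [hao]; exact hεN) h
      · rintro (rfl | rfl)
        · exact ⟨by omega, by rw [pow_one]⟩
        · exact ⟨hεN, hc⟩
    rw [h2, Finset.sum_pair (Ne.symm hε1), pow_one, ← hx] at h1
    exact h1

theorem asm_forward {G : Type*} [Group G] [Finite G] (P : Sylow 2 G) (n : ℕ) (hn : 3 ≤ n)
    (hP : Nat.card P = 2 ^ n) (ζ : ℂ) (hζ : IsPrimitiveRoot ζ (2 ^ (n - 1)))
    (hidx : (commutator ↥P).index = 4) :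
    ∃ g : G, g ∈ (P : Subgroup G) ∧ 2 ∣ (Subgroup.centralizer ({g} : Set G)).index ∧
      (KK g = IntermediateField.adjoin ℚ ({ζ + ζ⁻¹} : Set ℂ) ∨
        KK g = IntermediateField.adjoin ℚ ({ζ - ζ⁻¹} : Set ℂ)) := by
  classical
  obtain ⟨hN4, hN2, hM2⟩ := asm_num hn
  have hζ0 : ζ ≠ 0 := hζ.ne_zero (by positivity)
  have hζN : ζ ^ 2 ^ (n - 1) = 1 := hζ.pow_eq_one
  have hna : ∃ x y : ↥P, x * y ≠ y * x := by
    by_contra hcon
    push Not at hcon
    have h1 : commutator ↥P = ⊥ := Cfsg.Agent.Lib.Helper59.commutator_eq_bot_of_comm hcon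
    rw [h1, Subgroup.index_bot] at hidx
    have hP' : Nat.card ↥P = 2 ^ n := hP
    rw [hP'] at hidx
    have : 2 ^ 3 ≤ 2 ^ n := Nat.pow_le_pow_right (by norm_num) hn
    omega
  obtain ⟨n', a, b, -, hcard, hao, hb, hcase⟩ :=
    Cfsg.Agent.Lib.Helper59.taussky_classify P.2 hidx hna
  have hnn : n' = n := Nat.pow_right_injective (le_refl 2) (hcard.symm.trans hP)
  subst hnn
  have hao' : orderOf (a : G) = 2 ^ (n' - 1) := by rw [Subgroup.orderOf_coe]; exact hao
  have hb' : (b : G) ∉ Subgroup.zpowers (a : G) := by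
    intro h
    apply hb
    obtain ⟨k, hk⟩ := Subgroup.mem_zpowers_iff.1 h
    exact Subgroup.mem_zpowers_iff.2 ⟨k, Subtype.ext (by simpa using hk)⟩
  -- the exponent
  obtain ⟨ε, hε, hba⟩ : ∃ ε : ℕ, (ε = 2 ^ (n' - 1) - 1 ∨ (4 ≤ n' ∧ ε = 2 ^ (n' - 2) - 1)) ∧
      b * a * b⁻¹ = a ^ ε := by
    have hinv : a⁻¹ = a ^ (2 ^ (n' - 1) - 1) := by
      rw [← hao]
      exact inv_eq_of_mul_eq_one_right (by
        rw [← pow_succ', Nat.sub_add_cancel (orderOf_pos a), pow_orderOf_eq_one])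
    rcases hcase with ⟨-, h⟩ | ⟨-, h⟩ | ⟨h4, -, h⟩
    · exact ⟨_, Or.inl rfl, h.trans hinv⟩
    · exact ⟨_, Or.inl rfl, h.trans hinv⟩
    · exact ⟨_, Or.inr ⟨h4, rfl⟩, h⟩
  have hba' : (b : G) * a * (b : G)⁻¹ = (a : G) ^ ε := by
    have := congrArg (Subtype.val) hba
    simpa using this
  have ha4 : (a : G) ^ 2 ≠ 1 := by
    intro h
    have := orderOf_dvd_of_pow_eq_one h
    rw [hao'] at this
    have := Nat.le_of_dvd (by norm_num) this
    omega
  have hZ : ∀ c ∈ (P : Subgroup G), (∀ s ∈ (P : Subgroup G), c * s = s * c) → c ^ 2 = 1 := by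
    intro c hc hcs
    have := sq_eq_one_of_central n' hn hP a b hao hb ε hε hba ⟨c, hc⟩
      (fun s => Subtype.ext (hcs s s.2))
    have h2 := congrArg (Subtype.val) this
    simpa using h2
  refine ⟨a, a.2, even_index P a a.2 ha4 hZ, ?_⟩
  rcases hε with hε | ⟨h4, hε⟩
  · left
    have hzε : ζ ^ ε = ζ⁻¹ := by
      rw [hε]
      exact eq_inv_of_mul_eq_one_left (by
        rw [← pow_succ, Nat.sub_add_cancel (by omega), hζN])
    apply asm_field P n' hn hP ζ hζ a b a.2 b.2 hao' hb' ε (by omega) (by omega) hba'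
    · rw [hzε]
    · intro j
      rw [mul_comm, pow_mul, hzε]
      exact cheb_plus ζ hζ0 j
  · right
    have h44 := asm_num4 h4
    have hzε : ζ ^ ε = -ζ⁻¹ := by
      have h1 : ζ ^ ε * ζ = -1 := by
        rw [hε, ← pow_succ, Nat.sub_add_cancel (by omega)]
        exact asm_pow_half hn hζ
      field_simp
      linear_combination h1
    apply asm_field P n' hn hP ζ hζ a b a.2 b.2 hao' hb' ε (by omega) (by omega) hba'
    · rw [hzε]; ring
    · intro j
      rw [mul_comm, pow_mul, hzε, neg_eq_neg_one_mul, mul_pow]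
      exact cheb_minus ζ hζ0 j

theorem asm_backward {G : Type*} [Group G] [Finite G] (P : Sylow 2 G) (n : ℕ) (hn : 3 ≤ n)
    (hP : Nat.card P = 2 ^ n) (ζ : ℂ) (hζ : IsPrimitiveRoot ζ (2 ^ (n - 1)))
    (g : G) (hg : g ∈ (P : Subgroup G)) (heven : 2 ∣ (Subgroup.centralizer ({g} : Set G)).index)
    (hK : KK g = IntermediateField.adjoin ℚ ({ζ + ζ⁻¹} : Set ℂ) ∨
        KK g = IntermediateField.adjoin ℚ ({ζ - ζ⁻¹} : Set ℂ)) :
    (commutator ↥P).index = 4 := by
  classical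
  have hP' : Nat.card ↥P = 2 ^ n := hP
  obtain ⟨hN4, hN2, hM2⟩ := asm_num hn
  -- `g` is not central in `P`
  have hnc : ∃ x : ↥P, x * (⟨g, hg⟩ : ↥P) ≠ ⟨g, hg⟩ * x := by
    by_contra hcon
    push Not at hcon
    have hle : (P : Subgroup G) ≤ Subgroup.centralizer ({g} : Set G) := by
      intro x hx
      rw [Subgroup.mem_centralizer_iff]
      intro y hy
      rw [Set.mem_singleton_iff.1 hy]
      have := congrArg Subtype.val (hcon ⟨x, hx⟩)
      exact this.symm
    have h1 : (Subgroup.centralizer ({g} : Set G)).index ∣ (P : Subgroup G).index :=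
      Subgroup.index_dvd_of_le hle
    exact P.not_dvd_index (heven.trans h1)
  rcases Nat.lt_or_ge n 4 with h3 | h4
  · have hn3 : n = 3 := by omega
    subst hn3
    obtain ⟨x, hx⟩ := hnc
    exact index_commutator_of_card_eight (by rw [hP']; norm_num) ⟨x, _, hx⟩
  · have h44 := asm_num4 h4
    -- one of the two elements lies in the field of values
    have hmem : ζ + ζ⁻¹ ∈ KK g ∨ ζ - ζ⁻¹ ∈ KK g := by
      rcases hK with h | h
      · left; rw [h]; exact IntermediateField.mem_adjoin_simple_self ℚ _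
      · right; rw [h]; exact IntermediateField.mem_adjoin_simple_self ℚ _
    have hno : ∀ _ : g ^ 2 ^ (n - 1) = 1, ¬ IsConj g (g ^ (2 ^ (n - 2) + 1)) := by
      intro h1 h2
      obtain ⟨h3, h4'⟩ := not_mem_KK n h4 ζ hζ g h1 h2
      rcases hmem with h | h
      · exact h3 h
      · exact h4' h
    -- the order of `g`
    have hord : orderOf (⟨g, hg⟩ : ↥P) ∣ 2 ^ n := by rw [← hP']; exact orderOf_dvd_natCard _
    obtain ⟨m, hm, hom⟩ := (Nat.dvd_prime_pow Nat.prime_two).1 hord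
    have hog : orderOf g = 2 ^ m := by
      rw [← hom]; exact Subgroup.orderOf_coe (⟨g, hg⟩ : ↥P)
    have hm1 : m = n - 1 := by
      by_contra hne
      rcases Nat.lt_or_ge m (n - 1) with hlt | hge
      · -- small order
        have hd : g ^ 2 ^ (n - 2) = 1 := by
          apply orderOf_dvd_iff_pow_eq_one.1
          rw [hog]
          exact pow_dvd_pow 2 (by omega)
        have hd' : g ^ 2 ^ (n - 1) = 1 := by rw [hN2, mul_comm, pow_mul, hd, one_pow]
        apply hno hd'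
        rw [pow_succ, hd, one_mul]
      · -- `P` cyclic
        have hmn : m = n := by omega
        obtain ⟨x, hx⟩ := hnc
        apply hx
        have htop : Subgroup.zpowers (⟨g, hg⟩ : ↥P) = ⊤ := by
          apply Subgroup.eq_top_of_card_eq
          rw [Nat.card_zpowers, hom, hmn, hP']
        have hxm : x ∈ Subgroup.zpowers (⟨g, hg⟩ : ↥P) := by rw [htop]; exact Subgroup.mem_top x
        obtain ⟨k, rfl⟩ := Subgroup.mem_zpowers_iff.1 hxm
        exact (Commute.zpow_left (Commute.refl _) k).eq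
    rw [hm1] at hom hog
    obtain ⟨x, k, hxk, hk⟩ := exists_conj_pow n h4 hP' (⟨g, hg⟩ : ↥P) hom hnc
    rcases hk with hk | hk | hk
    · exact index_commutator_eq_four n h4 hP' _ x hom k (Or.inl hk) hxk
    · exact index_commutator_eq_four n h4 hP' _ x hom k (Or.inr hk) hxk
    · exfalso
      apply hno (by rw [← hog]; exact pow_orderOf_eq_one g)
      rw [← hk]
      refine isConj_iff.2 ⟨(x : G), ?_⟩
      have := congrArg Subtype.val hxk
      simpa using this

end Cfsg.Agent.Lib.Helper19.FV
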