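import Mathlib

set_option autoImplicit false

/-! Ladder FV (S4923), rung COMM. -/

namespace Cfsg.Agent.Lib.Helper19.FV

open Subgroup
open scoped commutatorElement

theorem index_commutator_eq_four {S : Type*} [Group S] [Finite S] (n : ℕ) (hn : 4 ≤ n)
    (hS : Nat.card S = 2 ^ n) (g x : S) (hg : orderOf g = 2 ^ (n - 1)) (k : ℕ)
    (hk : k = 2 ^ (n - 1) - 1 ∨ k = 2 ^ (n - 2) - 1) (hx : x * g * x⁻¹ = g ^ k) :
    (commutator S).index = 4 := by
  classical
  obtain ⟨e, rfl⟩ : ∃ e, n = e + 4 := ⟨n - 4, by omega⟩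
  have e1 : e + 4 - 1 = e + 3 := by omega
  have e2 : e + 4 - 2 = e + 2 := by omega
  rw [e1] at hg hk
  rw [e2] at hk
  have hidx : (zpowers g).index = 2 := by
    have h1 := (zpowers g).card_mul_index
    rw [hS, Nat.card_zpowers, hg] at h1
    have h2 : (2 : ℕ) ^ (e + 4) = 2 ^ (e + 3) * 2 := by rw [← pow_succ]
    rw [h2] at h1
    exact Nat.eq_of_mul_eq_mul_left (by positivity) h1
  have hnorm : (zpowers g).Normal := normal_of_index_eq_two hidx
  have hg2 : orderOf (g ^ 2) = 2 ^ (e + 2) := by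
    rw [orderOf_pow_of_dvd (by norm_num) (by rw [hg]; exact ⟨2 ^ (e + 2), by ring⟩), hg]
    have : (2 : ℕ) ^ (e + 3) = 2 ^ (e + 2) * 2 := by rw [← pow_succ]
    rw [this, Nat.mul_div_cancel _ (by norm_num)]
  set B := zpowers (g ^ 2) with hB
  have hBn : B.Normal := by
    constructor
    intro b hb s
    obtain ⟨m, rfl⟩ := mem_zpowers_iff.1 hb
    obtain ⟨i, hi⟩ := mem_zpowers_iff.1 (hnorm.conj_mem g (mem_zpowers g) s)
    rw [← conj_zpow, ← conj_pow, ← hi]
    apply Subgroup.zpow_mem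
    have : (g ^ i) ^ 2 = (g ^ 2) ^ i := by
      rw [← zpow_natCast, ← zpow_natCast, ← zpow_mul, ← zpow_mul, mul_comm]
    rw [this]
    exact Subgroup.zpow_mem _ (mem_zpowers _) _
  have hBidx : B.index = 4 := by
    have h1 := B.card_mul_index
    rw [hS, hB, Nat.card_zpowers, hg2] at h1
    have h2 : (2 : ℕ) ^ (e + 4) = 2 ^ (e + 2) * 4 := by rw [pow_add 2 (e + 2) 2] ; norm_num
    rw [h2] at h1
    exact Nat.eq_of_mul_eq_mul_left (by positivity) h1
  -- `B ≤ S'`
  obtain ⟨o, ho, hko⟩ : ∃ o, Odd o ∧ k = 2 * o + 1 := by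
    rcases hk with rfl | rfl
    · refine ⟨2 ^ (e + 2) - 1, ?_, ?_⟩
      · have : (2 : ℕ) ^ (e + 2) = 2 * 2 ^ (e + 1) := by rw [← pow_succ']
        have h0 : 0 < 2 ^ (e + 1) := by positivity
        exact ⟨2 ^ (e + 1) - 1, by omega⟩
      · have : (2 : ℕ) ^ (e + 3) = 2 * 2 ^ (e + 2) := by rw [← pow_succ']
        have h0 : 0 < 2 ^ (e + 2) := by positivity
        omega
    · refine ⟨2 ^ (e + 1) - 1, ?_, ?_⟩
      · have : (2 : ℕ) ^ (e + 1) = 2 * 2 ^ e := by rw [← pow_succ']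
        have h0 : 0 < 2 ^ e := by positivity
        exact ⟨2 ^ e - 1, by omega⟩
      · have : (2 : ℕ) ^ (e + 2) = 2 * 2 ^ (e + 1) := by rw [← pow_succ']
        have h0 : 0 < 2 ^ (e + 1) := by positivity
        omega
  have hc : (g ^ 2) ^ o ∈ commutator S := by
    have h1 : ⁅x, g⁆ ∈ commutator S :=
      commutator_mem_commutator (mem_top x) (mem_top g)
    have h2 : ⁅x, g⁆ = (g ^ 2) ^ o := by
      rw [commutatorElement_def, hx, hko, ← pow_mul, pow_succ, mul_inv_cancel_right]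
    rwa [h2] at h1
  have hle1 : B ≤ commutator S := by
    rw [hB, zpowers_le]
    obtain ⟨v, hv⟩ := exists_pow_eq_self_of_coprime (x := g ^ 2) (n := o) (by
      rw [hg2]
      exact Nat.Coprime.pow_right _ (Nat.coprime_two_right.2 ho))
    rw [← hv]
    exact Subgroup.pow_mem _ hc _
  have hle2 : commutator S ≤ B := by
    have hcard : Nat.card (S ⧸ B) = 2 ^ 2 := by
      rw [← index_eq_card, hBidx]; norm_num
    have : Fact (Nat.Prime 2) := ⟨Nat.prime_two⟩
    have hcomm : ∀ a b : S ⧸ B, a * b = b * a :=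
      (IsPGroup.isMulCommutative_of_card_eq_prime_sq hcard).is_comm.comm
    rw [_root_.commutator_def, commutator_le]
    intro a _ b _
    rw [← QuotientGroup.eq_one_iff, commutatorElement_def]
    simp only [QuotientGroup.mk_mul, QuotientGroup.mk_inv]
    rw [hcomm (a : S ⧸ B) b]
    group
  rw [le_antisymm hle2 hle1, hBidx]

end Cfsg.Agent.Lib.Helper19.FV
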